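import Cfsg.Agent.Comp.Defs
import Cfsg.Agent.Th3.T

/-! Kernel-level arithmetic with the codes `c < 3^10` of the elements of the Sylow 3-subgroup of Th. -/

set_option autoImplicit false

namespace CF.Th3

open CF.Comp

/-- record `(i, j)` of width 16 -/
noncomputable def r16 (t : BT Nat) (i j : Nat) : Nat :=
  force i fun i => Nat.land (Nat.shiftRight (t.get i) (Nat.mul (nat_lit 16) j)) (nat_lit 65535)

/-- record `(i, j)` of width 8 -/
noncomputable def r8 (t : BT Nat) (i j : Nat) : Nat :=
  force i fun i => Nat.land (Nat.shiftRight (t.get i) (Nat.mul (nat_lit 8) j)) (nat_lit 255)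

/-- sum in the normal subgroup of order 243 -/
noncomputable def ad (u w : Nat) : Nat := r8 tP u w

/-- action on the normal subgroup of order 243 -/
noncomputable def ac (u q : Nat) : Nat := r8 tA u q

/-- product of coset representatives -/
noncomputable def ff (q r : Nat) : Nat := r16 tF q r

/-- product -/
noncomputable def mu (a b : Nat) : Nat :=
  force a fun a => force b fun b => force (Nat.div b (nat_lit 243)) fun r =>
    force (ff (Nat.div a (nat_lit 243)) r) fun f => force (Nat.mod f (nat_lit 243)) fun u =>
      Nat.add (Nat.sub f u) (ad (ad u (ac (Nat.mod a (nat_lit 243)) r)) (Nat.mod b (nat_lit 243)))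

/-- inverse -/
noncomputable def iv (a : Nat) : Nat :=
  force a fun a => r16 tI (Nat.div a (nat_lit 243)) (Nat.mod a (nat_lit 243))

/-- conjugate `b a b⁻¹` -/
noncomputable def cjc (a b : Nat) : Nat := force b fun b => mu (mu b a) (iv b)

/-- commutator `a⁻¹ b a b⁻¹` -/
noncomputable def cc (a b : Nat) : Nat := force a fun a => mu (iv a) (cjc a b)

/-- cube -/
noncomputable def cu (a : Nat) : Nat := force a fun a => mu (mu a a) a

/-- `a < b` -/
noncomputable def lt (a b : Nat) : Bool := Nat.ble (Nat.succ a) b

/-- all `c < n` -/
noncomputable def allN (n : Nat) (f : Nat → Bool) : Bool := allBin f n (nat_lit 16) (nat_lit 0)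

/-- some `c < n` -/
noncomputable def anyN (n : Nat) (f : Nat → Bool) : Bool :=
  Bool.rec true false (allN n fun c => Bool.rec true false (f c))

/-- sifting through an echelon list; `p` is the current power of 3 -/
noncomputable def sfp (l : List Nat) : Nat → Nat → Nat :=
  List.rec (motive := fun _ => Nat → Nat → Nat) (fun _ c => c)
    (fun g _ ih p c => force (Nat.div p (nat_lit 3)) fun p' =>
      Bool.rec
        (force (Nat.mod (Nat.div c p) (nat_lit 3)) fun d =>
          Bool.rec (force (mu c (Bool.rec g (iv g) (Nat.beq d (nat_lit 1)))) (ih p')) (ih p' c)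
            (Nat.beq d (nat_lit 0)))
        (ih p' c) (Nat.beq g (nat_lit 0))) l

/-- sifting -/
noncomputable def sf (l : List Nat) (c : Nat) : Nat := force c fun c => sfp l (nat_lit 19683) c

/-- membership by sifting -/
noncomputable def mm (l : List Nat) (c : Nat) : Bool := Nat.beq (sf l c) (nat_lit 0)

/-- the digits at the pivots vanish -/
noncomputable def ztp (l : List Nat) : Nat → Nat → Bool :=
  List.rec (motive := fun _ => Nat → Nat → Bool) (fun _ c => Nat.beq c (nat_lit 0))
    (fun g _ ih p c => force (Nat.div p (nat_lit 3)) fun p' =>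
      Bool.rec (Bool.rec false (ih p' c) (lt c p))
        (Bool.rec false (force (Nat.mod c p) (ih p')) (lt (Nat.div c p) (nat_lit 3))) (Nat.beq g (nat_lit 0))) l

/-- `f (a + c)` for all `c` with zero digits at the pivots -/
noncomputable def alp (f : Nat → Bool) (l : List Nat) : Nat → Nat → Bool :=
  List.rec (motive := fun _ => Nat → Nat → Bool) (fun _ a => f a)
    (fun g _ ih p a => force (Nat.div p (nat_lit 3)) fun p' =>
      Bool.rec (ih p' a)
        (Bool.rec false (force (Nat.add a p) fun a1 => Bool.rec false (force (Nat.add a1 p) (ih p')) (ih p' a1))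
          (ih p' a)) (Nat.beq g (nat_lit 0))) l

/-- transversal test -/
noncomputable def zt (l : List Nat) (c : Nat) : Bool := force c fun c => ztp l (nat_lit 19683) c

/-- all elements of the transversal -/
noncomputable def alT (l : List Nat) (f : Nat → Bool) : Bool := alp f l (nat_lit 19683) (nat_lit 0)

/-- the cosets `r D` with `P r` cover the group generated by `xs` -/
noncomputable def covS (xs D : List Nat) (P : Nat → Bool) : Bool :=
  alT D fun r => Bool.rec false (lall (fun x => zt D (sf D (mu x r))) xs) (P r)

/-- the cosets `r D` with `P r` cover the group `E` -/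
noncomputable def cov (E D : List Nat) (P : Nat → Bool) : Bool :=
  alT D fun r => Bool.rec true (Bool.rec false
    (lall (fun x => force (sf D (mu x r)) fun r' => Bool.rec false (mm E r') (zt D r')) E) (P r)) (mm E r)

/-- all commutators are `< n` -/
noncomputable def ccl (A B : List Nat) (n : Nat) : Bool := lall (fun a => lall (fun b => lt (cc a b) n) B) A

/-- all entries are codes -/
noncomputable def okl (A : List Nat) : Bool := lall (fun a => lt a (nat_lit 59049)) A

end CF.Th3
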