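import Cfsg.Agent.Schur.Pc
import Cfsg.Agent.Th3.E

/-! The codes multiply like the elements of a group satisfying the presentation. -/

set_option autoImplicit false
set_option linter.unusedSimpArgs false

namespace CF.Th3

open CF.Comp CF.Schur.Pc Subgroup

theorem lt_iff {a b : ℕ} : lt a b = true ↔ a < b := ble_iff

theorem band_iff {a b : Bool} : band a b = true ↔ a = true ∧ b = true := brec_and

theorem allN_spec {n : ℕ} {f : ℕ → Bool} (h : allN n f = true) (hn : n ≤ 59049 := by decide) :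
    ∀ i < n, f i = true := allBin_spec (d := 16) h (by omega)

theorem all0 {f : ℕ → Bool} {k : ℕ} (h : allFrom f 0 k = true) : ∀ i < k, f i = true := allFrom_zero.1 h

theorem all1 {f : ℕ → Bool} (h : allFrom f 1 242 = true) {i : ℕ} (h0 : i ≠ 0) (hi : i < 243) : f i = true := by
  have := allFrom_iff.1 h (i - 1) (by omega)
  rwa [show 1 + (i - 1) = i by omega] at this

theorem mu_eq (a b : ℕ) : mu a b = ff (a / 243) (b / 243) - ff (a / 243) (b / 243) % 243 +
    ad (ad (ff (a / 243) (b / 243) % 243) (ac (a % 243) (b / 243))) (b % 243) := by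
  simp only [mu, force_eq]; rfl

theorem mem_g5 {g : ℕ} (h : lany (Nat.beq g) g5 = true) : g ∈ g5 :=
  let ⟨_, h1, h2⟩ := lany_iff.1 h
  beq_iff.1 h2 ▸ h1

theorem g5_pos {g : ℕ} (h : g ∈ g5) : 0 < g ∧ g < 243 := by
  revert g; decide

theorem lgW {q : ℕ} (h0 : q ≠ 0) (hq : q < 243) : wq q = wq (q - lg q) ++ wq (lg q) ∧
    wv q = wv (q - lg q) ++ wv (lg q) ∧ lg q ≤ q ∧ lg q ∈ g5 := by
  have := all1 kW h0 hq
  simp only [force_eq, band_iff, leq_iff, lapp_eq, ble_iff] at this
  exact ⟨this.1.1, this.1.2, this.2.1, mem_g5 this.2.2⟩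

theorem k0' {u : ℕ} (h : u < 243) : ad u 0 = u ∧ ad 0 u = u ∧ ac u 0 = u ∧ ff u 0 = 243 * u := by
  have := all0 k0 u h
  simp only [band_iff, beq_iff] at this
  exact ⟨this.1.1, this.1.2, this.2.1, this.2.2⟩

theorem ad_lt {u w : ℕ} (hu : u < 243) (hw : w < 243) : ad u w < 243 := by
  rcases eq_or_ne w 0 with rfl | h
  · rwa [(k0' hu).1]
  · have := all1 kP h hw
    simp only [force_eq] at this
    have := all0 this u hu
    simp only [force_eq, band_iff, lt_iff] at this
    exact this.1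

theorem ac_lt {u w : ℕ} (hu : u < 243) (hw : w < 243) : ac u w < 243 := by
  rcases eq_or_ne w 0 with rfl | h
  · rwa [(k0' hu).2.2.1]
  · have := all1 kA h hw
    simp only [force_eq] at this
    have := all0 this u hu
    simp only [force_eq, band_iff, lt_iff] at this
    exact this.1

theorem ff_lt {u w : ℕ} (hu : u < 243) (hw : w < 243) : ff u w < 59049 := by
  rcases eq_or_ne w 0 with rfl | h
  · rw [(k0' hu).2.2.2]; omega
  · have := all1 kF h hw
    simp only [force_eq] at this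
    have := all0 this u hu
    simp only [force_eq, band_iff, lt_iff] at this
    exact this.1

theorem mu_aux {a b : ℕ} (hb : b < 59049) :
    ad (ad (ff (a / 243) (b / 243) % 243) (ac (a % 243) (b / 243))) (b % 243) < 243 :=
  ad_lt (ad_lt (Nat.mod_lt _ (by decide)) (ac_lt (Nat.mod_lt _ (by decide)) (by omega))) (Nat.mod_lt _ (by decide))

theorem mu_div {a b : ℕ} (hb : b < 59049) : mu a b / 243 = ff (a / 243) (b / 243) / 243 := by
  have := mu_aux (a := a) hb
  rw [mu_eq]; omega

theorem mu_mod {a b : ℕ} (hb : b < 59049) :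
    mu a b % 243 = ad (ad (ff (a / 243) (b / 243) % 243) (ac (a % 243) (b / 243))) (b % 243) := by
  have := mu_aux (a := a) hb
  rw [mu_eq]; omega

theorem mu_lt {a b : ℕ} (ha : a < 59049) (hb : b < 59049) : mu a b < 59049 := by
  have h1 := mu_div (a := a) hb
  have h2 := ff_lt (u := a / 243) (w := b / 243) (by omega) (by omega)
  omega

theorem mu_small {a b : ℕ} (ha : a < 59049) (hb : b < 243) : mu a b = 243 * (a / 243) + ad (a % 243) b := by
  rw [mu_eq, Nat.div_eq_of_lt hb, (k0' (by omega)).2.2.2, (k0' (by omega)).2.2.1, Nat.mul_mod_right,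
    (k0' (by omega)).2.1, Nat.mod_eq_of_lt hb, Nat.sub_zero]

theorem iv_lt {a : ℕ} (ha : a < 59049) : iv a < 59049 ∧ mu a (iv a) = 0 := by
  have := allN_spec kI le_rfl a ha
  simpa only [force_eq, band_iff, lt_iff, beq_iff] using this

theorem dec {c : ℕ} (hc : c < 59049) (h0 : c ≠ 0) : ∃ g ∈ g10, g ≤ c ∧ mu (c - g) g = c := by
  have := allN_spec kD le_rfl c hc
  simp only [force_eq, brec_or, band_iff, ble_iff, beq_iff, h0, false_or] at this
  obtain ⟨⟨h1, h2⟩, h3⟩ := this
  obtain ⟨g, h4, h5⟩ := lany_iff.1 h2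
  exact ⟨_, beq_iff.1 h5 ▸ h4, h1, h3⟩

theorem pow_g5 {k : ℕ} (hk : k < 5) : 3 ^ k ∈ g5 := by
  interval_cases k <;> decide

theorem mu_pow {k a b : ℕ} (hk : k ≤ 10) (ha : a < 3 ^ k) (hb : b < 3 ^ k) : mu a b < 3 ^ k := by
  rcases lt_or_ge k 5 with h | h
  · have h1 := (g5_pos (pow_g5 h)).2
    have := lt_iff.1 (all0 (all0 (lall_iff.1 kZ1 _ (pow_g5 h)) a ha) b hb)
    rwa [mu_small (by omega) (by omega), Nat.div_eq_of_lt (by omega), Nat.mod_eq_of_lt (by omega), mul_zero, zero_add]
  rcases hk.eq_or_lt with rfl | hk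
  · exact mu_lt ha hb
  obtain ⟨j, rfl⟩ := Nat.exists_eq_add_of_le h
  have h1 := (g5_pos (pow_g5 (k := j) (by omega))).2
  rw [pow_add] at ha hb ⊢
  have : ff (a / 243) (b / 243) < 243 * 3 ^ j :=
    lt_iff.1 (all0 (all0 (lall_iff.1 kZ2 _ (pow_g5 (by omega))) _ (by omega)) _ (by omega))
  have h2 := mu_div (a := a) (b := b) (by omega)
  omega

theorem mu_split {k c : ℕ} (hk : k < 5) (hc : c < 59049) : mu (c - c % 3 ^ k) (c % 3 ^ k) = c := by
  have h1 := g5_pos (pow_g5 hk)
  have h2 : c % 3 ^ k < 3 ^ k := Nat.mod_lt _ h1.1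
  have h3 : c % 243 % 3 ^ k = c % 3 ^ k := Nat.mod_mod_of_dvd _ (pow_dvd_pow 3 hk.le)
  have h4 := Nat.mod_le (c % 243) (3 ^ k)
  have h5 : ad (c % 243 - c % 243 % 3 ^ k) (c % 243 % 3 ^ k) = c % 243 :=
    beq_iff.1 (all0 (lall_iff.1 kS _ (pow_g5 hk)) _ (by omega))
  rw [mu_small (by omega) (by omega), show (c - c % 3 ^ k) % 243 = c % 243 - c % 3 ^ k by omega, ← h3, h5]
  omega

variable {Γ : Type*} [Group Γ] {y : ℕ → Γ}

theorem wfd : WF Pd := wf_of (by decide +kernel)

theorem ceq_spec (h : Rel Pd y) {u w : List ℕ} (e : ceq u w = true) : pv y u = pv y w := by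
  have s : Sem Pd (1 : PUnit.{1} →* Γ) y fun _ => 1 :=
    ⟨by simp, fun i j a b => by simpa using h.conj i j a b, fun i a => by simpa using h.pow i a,
      fun _ => ⟨1, fun e he => absurd he (Nat.not_lt_zero _)⟩⟩
  rw [ceq, brec_and, brec_and] at e
  obtain ⟨N, _, _, e1, -, -, e2⟩ := col_spec s wfd (by decide) (ltAll_iff.1 e.1) e.2.2
  obtain ⟨N', _, _, e3, -, -, e4⟩ := col_spec s wfd (by decide) (ltAll_iff.1 e.2.1) e1
  rw [e2, e4, leq_iff.1 e3]

/-- the element with code `c` -/
noncomputable def vl (y : ℕ → Γ) (c : ℕ) : Γ := pv y (wq (c / 243)) * pv y (wv (c % 243))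

theorem vP (h : Rel Pd y) {u w : ℕ} (hu : u < 243) (hw : w < 243) :
    pv y (wv (ad u w)) = pv y (wv u) * pv y (wv w) := by
  induction w using Nat.strong_induction_on with
  | _ w ih =>
  rcases eq_or_ne w 0 with rfl | h0
  · rw [(k0' hu).1]; exact (mul_one _).symm
  obtain ⟨-, e, l, g⟩ := lgW h0 hw
  have g' := g5_pos g
  have := all1 kP h0 hw
  simp only [force_eq] at this
  have := all0 this u hu
  simp only [force_eq, band_iff, beq_iff] at this
  have b := ceq_spec h (lall_iff.1 (all0 kP0 _ (ad_lt hu (show w - lg w < 243 by omega))) _ g)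
  rw [lapp_eq, pv_append] at b
  rw [this.2, e, pv_append, ← mul_assoc, ← ih _ (by omega) (by omega)]
  exact b.symm

theorem vA (h : Rel Pd y) {u w : ℕ} (hu : u < 243) (hw : w < 243) :
    pv y (wv u) * pv y (wq w) = pv y (wq w) * pv y (wv (ac u w)) := by
  induction w using Nat.strong_induction_on with
  | _ w ih =>
  rcases eq_or_ne w 0 with rfl | h0
  · rw [(k0' hu).2.2.1]; exact (mul_one _).trans (one_mul _).symm
  obtain ⟨e, -, l, g⟩ := lgW h0 hw
  have g' := g5_pos g
  have := all1 kA h0 hw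
  simp only [force_eq] at this
  have := all0 this u hu
  simp only [force_eq, band_iff, beq_iff] at this
  have b := ceq_spec h (lall_iff.1 (all0 kA0 _ (ac_lt hu (show w - lg w < 243 by omega))) _ g)
  rw [lapp_eq, lapp_eq, pv_append, pv_append] at b
  rw [this.2, e, pv_append, ← mul_assoc, ih _ (by omega) (by omega), mul_assoc, b, ← mul_assoc]
  rfl

theorem vM (h : Rel Pd y) {a b : ℕ} (hb : b < 59049)
    (e : pv y (wq (a / 243)) * pv y (wq (b / 243)) = vl y (ff (a / 243) (b / 243))) :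
    vl y (mu a b) = vl y a * vl y b := by
  have m : ∀ x, x % 243 < 243 := fun x => Nat.mod_lt _ (by decide)
  have q : b / 243 < 243 := by omega
  rw [vl, mu_div hb, mu_mod hb, vP h (ad_lt (m _) (ac_lt (m _) q)) (m _), vP h (m _) (ac_lt (m _) q), vl, vl,
    ← mul_assoc, ← mul_assoc, ← mul_assoc, mul_assoc _ (pv y (wv (a % 243))), vA h (m _) q, ← mul_assoc, e, vl]

theorem vl_mul (q : ℕ) : vl y (243 * q) = pv y (wq q) := by
  rw [vl, Nat.mul_div_cancel_left _ (by decide), Nat.mul_mod_right]; exact mul_one _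

theorem vF (h : Rel Pd y) {u w : ℕ} (hu : u < 243) (hw : w < 243) :
    pv y (wq u) * pv y (wq w) = vl y (ff u w) := by
  induction w using Nat.strong_induction_on with
  | _ w ih =>
  rcases eq_or_ne w 0 with rfl | h0
  · rw [(k0' hu).2.2.2, vl_mul]; exact mul_one _
  obtain ⟨e, -, l, g⟩ := lgW h0 hw
  have g' := g5_pos g
  have := all1 kF h0 hw
  simp only [force_eq] at this
  have := all0 this u hu
  simp only [force_eq, band_iff, beq_iff] at this
  have f := ff_lt hu (show w - lg w < 243 by omega)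
  have b := lall_iff.1 (all0 kF0 (ff u (w - lg w) / 243) (by omega)) _ g
  rw [force_eq] at b
  replace b := ceq_spec h b
  rw [lapp_eq, lapp_eq, pv_append, pv_append] at b
  rw [this.2, e, pv_append, ← mul_assoc, ih _ (by omega) (by omega), ← vl_mul (lg w)]
  refine (vM h (b := 243 * lg w) (by omega) ?_).symm
  rw [Nat.mul_div_cancel_left _ (by decide)]
  exact b

theorem vl_mu (h : Rel Pd y) {a b : ℕ} (ha : a < 59049) (hb : b < 59049) : vl y (mu a b) = vl y a * vl y b :=
  vM h hb (vF h (by omega) (by omega))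

end CF.Th3
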